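import Mathlib
import Cfsg.Agent.Lib.Helper46.FP.Defs
import Cfsg.Agent.Lib.Helper97.FP.Tools
import Cfsg.Agent.Lib.Helper29.FP.T2
import Cfsg.Agent.Lib.Helper22.PConstr
import Cfsg.Agent.Lib.Helper1.MinNormal
import Cfsg.Agent.S3745
import Cfsg.Agent.S0044

set_option autoImplicit false

/-! S3814, package P8 = `PkgC`: the faithful case with all minimal normal subgroups cyclic of the
same prime order is impossible. -/

namespace Cfsg.Agent.Lib.Helper27.FP

open Cfsg.Agent.Lib.Helper46.FP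
open scoped Pointwise

universe u

section general

variable {G : Type u} [Group G]

/-- In a group generated by an element of prime order every nontrivial element generates. -/
theorem mem_zpowers_of_prime [Finite G] {g k : G} {p : ℕ} (hp : p.Prime) (hg : orderOf g = p)
    (hk : k ∈ Subgroup.zpowers g) (hk1 : k ≠ 1) : g ∈ Subgroup.zpowers k := by
  have hle : Subgroup.zpowers k ≤ Subgroup.zpowers g := by
    rw [Subgroup.zpowers_le]; exact hk
  have hdvd : orderOf k ∣ p := hg ▸ orderOf_dvd_of_mem_zpowers hk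
  have hok : orderOf k = p := by
    rcases (Nat.dvd_prime hp).1 hdvd with h | h
    · exact absurd (orderOf_eq_one_iff.1 h) hk1
    · exact h
  have heq : Subgroup.zpowers k = Subgroup.zpowers g := by
    apply Subgroup.eq_of_le_of_card_ge hle
    rw [Nat.card_zpowers, Nat.card_zpowers, hg, hok]
  rw [heq]; exact Subgroup.mem_zpowers g

/-- An element commuting with `k` commutes with every element of `zpowers k`. -/
theorem comm_of_mem_zpowers {e k x : G} (h : e * k = k * e) (hx : x ∈ Subgroup.zpowers k) :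
    e * x = x * e := by
  obtain ⟨i, rfl⟩ := Subgroup.mem_zpowers_iff.1 hx
  exact (Commute.zpow_right (show Commute e k from h) i).eq

/-- Order of a nontrivial element killed by a prime. -/
theorem orderOf_eq_of_pow_prime {x : G} {p : ℕ} (hp : p.Prime) (h : x ^ p = 1) (h1 : x ≠ 1) :
    orderOf x = p := by
  have : Fact p.Prime := ⟨hp⟩
  exact orderOf_eq_prime h h1

/-- The product of three pairwise commuting elements of distinct prime orders. -/
theorem orderOf_mul3 {x y z : G} {a b c : ℕ} (ha : a.Prime) (hb : b.Prime) (hc : c.Prime)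
    (hab : a ≠ b) (hac : a ≠ c) (hbc : b ≠ c) (hx : orderOf x = a) (hy : orderOf y = b)
    (hz : orderOf z = c) (hxy : x * y = y * x) (hxz : x * z = z * x) (hyz : y * z = z * y) :
    orderOf (x * y * z) = a * b * c := by
  have h1 : orderOf (x * y) = a * b := by
    rw [← hx, ← hy]
    apply Commute.orderOf_mul_eq_mul_orderOf_of_coprime hxy
    rw [hx, hy]; exact (Nat.coprime_primes ha hb).2 hab
  have h2 : Commute (x * y) z := Commute.mul_left hxz hyz
  rw [← h1, ← hz]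
  apply h2.orderOf_mul_eq_mul_orderOf_of_coprime
  rw [h1, hz]
  exact Nat.Coprime.mul_left ((Nat.coprime_primes ha hc).2 hac) ((Nat.coprime_primes hb hc).2 hbc)

/-- Facts on the closure of two commuting elements killed by `c`. -/
theorem closure_pair_facts {x x' : G} (hxx : x * x' = x' * x) {c : ℕ} (hx : x ^ c = 1)
    (hx' : x' ^ c = 1) :
    (∀ e ∈ Subgroup.closure ({x, x'} : Set G), ∀ e' ∈ Subgroup.closure ({x, x'} : Set G),
      e * e' = e' * e) ∧ ∀ e ∈ Subgroup.closure ({x, x'} : Set G), e ^ c = 1 := by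
  have h1 : ∀ e ∈ Subgroup.closure ({x, x'} : Set G), Commute e x ∧ Commute e x' := by
    intro e he
    induction he using Subgroup.closure_induction with
    | mem g hg =>
      rcases hg with h | h
      · rw [h]; exact ⟨Commute.refl _, hxx⟩
      · rw [Set.mem_singleton_iff] at h
        rw [h]; exact ⟨(show Commute x x' from hxx).symm, Commute.refl _⟩
    | one => exact ⟨Commute.one_left _, Commute.one_left _⟩
    | mul g g' _ _ ih ih' => exact ⟨ih.1.mul_left ih'.1, ih.2.mul_left ih'.2⟩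
    | inv g _ ih => exact ⟨ih.1.inv_left, ih.2.inv_left⟩
  have h2 : ∀ e ∈ Subgroup.closure ({x, x'} : Set G), ∀ e' ∈ Subgroup.closure ({x, x'} : Set G),
      Commute e e' := by
    intro e he e' he'
    induction he' using Subgroup.closure_induction with
    | mem g hg =>
      rcases hg with h | h
      · rw [h]; exact (h1 e he).1
      · rw [Set.mem_singleton_iff] at h
        rw [h]; exact (h1 e he).2
    | one => exact Commute.one_right _
    | mul g g' _ _ ih ih' => exact ih.mul_right ih'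
    | inv g _ ih => exact ih.inv_right
  refine ⟨fun e he e' he' => (h2 e he e' he').eq, ?_⟩
  intro e he
  induction he using Subgroup.closure_induction with
  | mem g hg =>
    rcases hg with h | h
    · rw [h]; exact hx
    · rw [Set.mem_singleton_iff] at h
      rw [h]; exact hx'
  | one => exact one_pow c
  | mul g g' hg hg' ih ih' => rw [(h2 g hg g' hg').mul_pow, ih, ih', one_mul]
  | inv g _ ih => rw [inv_pow, ih, inv_one]

/-- A nontrivial normal-in-`H` subgroup contains a minimal one. -/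
theorem exists_minNormIn_le [Finite G] {M H : Subgroup G} (hM : NormIn M H) (hne : M ≠ ⊥) :
    ∃ N : Subgroup G, MinNormIn N H ∧ N ≤ M := by
  obtain ⟨Q, hQM, hQ⟩ := Finite.exists_le_minimal
    (p := fun Q : Subgroup G => NormIn Q H ∧ Q ≠ ⊥) (a := M) ⟨hM, hne⟩
  refine ⟨Q, ⟨hQ.prop.1, hQ.prop.2, ?_⟩, hQM⟩
  intro N' hN' hle hne'
  exact le_antisymm hle (hQ.le_of_le ⟨hN', hne'⟩ hle)

/-- A cyclic minimal normal subgroup has prime order. -/
theorem prime_orderOf_of_minNormIn [Finite G] {H : Subgroup G} {n : G}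
    (h : MinNormIn (Subgroup.zpowers n) H) : (orderOf n).Prime := by
  obtain ⟨⟨hle, hnorm⟩, hne, hmin⟩ := h
  have hn1 : n ≠ 1 := by
    rintro rfl; exact hne (by simp)
  have ho1 : orderOf n ≠ 1 := fun h => hn1 (orderOf_eq_one_iff.1 h)
  obtain ⟨p, hp⟩ : ∃ p, p = (orderOf n).minFac := ⟨_, rfl⟩
  have hpp : p.Prime := hp ▸ Nat.minFac_prime ho1
  have hpd : p ∣ orderOf n := hp ▸ Nat.minFac_dvd _
  obtain ⟨e, he⟩ : ∃ e, e = orderOf n / p := ⟨_, rfl⟩
  have he0 : e ≠ 0 := he ▸ (Nat.div_pos (Nat.le_of_dvd (orderOf_pos n) hpd) hpp.pos).ne'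
  have hed : e ∣ orderOf n := he ▸ Nat.div_dvd_of_dvd hpd
  obtain ⟨m, hm⟩ : ∃ m, m = n ^ e := ⟨_, rfl⟩
  have hom : orderOf m = p := by
    rw [hm, orderOf_pow_of_dvd he0 hed, he, Nat.div_div_self hpd (orderOf_pos n).ne']
  have hmN : m ∈ Subgroup.zpowers n := hm ▸ Subgroup.pow_mem _ (Subgroup.mem_zpowers n) e
  have hN' : NormIn (Subgroup.zpowers m) H := by
    refine ⟨(Subgroup.zpowers_le.2 hmN).trans hle, ?_⟩
    intro h hh x hx
    obtain ⟨k, rfl⟩ := Subgroup.mem_zpowers_iff.1 hx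
    have h1 : h * n * h⁻¹ ∈ Subgroup.zpowers n := hnorm h hh n (Subgroup.mem_zpowers n)
    obtain ⟨j, hj⟩ := Subgroup.mem_zpowers_iff.1 h1
    have h2 : h * m * h⁻¹ = m ^ j := by
      rw [hm, ← conj_pow, ← hj, ← zpow_natCast, ← zpow_mul, mul_comm, zpow_mul, zpow_natCast]
    rw [← conj_zpow, h2]
    exact Subgroup.zpow_mem _ (Subgroup.zpow_mem _ (Subgroup.mem_zpowers m) j) k
  have hm1 : m ≠ 1 := by
    intro h; rw [h, orderOf_one] at hom; exact hpp.one_lt.ne hom
  have heq := hmin _ hN' (Subgroup.zpowers_le.2 hmN)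
    (by intro h; exact hm1 (Subgroup.zpowers_eq_bot.1 h))
  have h3 : orderOf n = p := by
    rw [← Nat.card_zpowers n, ← heq, Nat.card_zpowers, hom]
  rw [h3]; exact hpp

/-- The structure given by `AllMinCyc` and `¬ TwoPrimes`. -/
theorem struct_of_cfg {V H : Subgroup G} {t : ℕ} {π : Finset ℕ} (hc : Cfg V H t π)
    (hmin : AllMinCyc H) (h2p : ¬ TwoPrimes H) :
    ∃ (a : ℕ) (n : G), a.Prime ∧ n ∈ H ∧ orderOf n = a ∧ NormIn (Subgroup.zpowers n) H ∧
      ∀ M : Subgroup G, NormIn M H → M ≠ ⊥ → a ∣ Nat.card M := by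
  have := hc.fin
  have hHne : H ≠ ⊥ := by
    obtain ⟨p, hp, q, hq, hpq⟩ := Finset.one_lt_card.1 (by rw [hc.card3]; norm_num : 1 < π.card)
    obtain ⟨g, hg, hog⟩ := hc.pair p hp q hq hpq
    intro h
    rw [h, Subgroup.mem_bot] at hg
    rw [hg, orderOf_one] at hog
    have h1 := (hc.piprime p hp).two_le
    have h2 := (hc.piprime q hq).two_le
    nlinarith
  have hHH : NormIn H H :=
    ⟨le_rfl, fun h hh x hx => H.mul_mem (H.mul_mem hh hx) (H.inv_mem hh)⟩
  obtain ⟨N, hN, -⟩ := exists_minNormIn_le hHH hHne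
  obtain ⟨n, hnN, rfl⟩ := hmin N hN
  have hpr := prime_orderOf_of_minNormIn hN
  refine ⟨orderOf n, n, hpr, hN.1.1 hnN, rfl, hN.1, ?_⟩
  intro M hM hMne
  obtain ⟨N', hN', hle⟩ := exists_minNormIn_le hM hMne
  obtain ⟨n', hn'N, rfl⟩ := hmin N' hN'
  have hpr' := prime_orderOf_of_minNormIn hN'
  have heq : orderOf n' = orderOf n := by
    by_contra hne
    exact h2p ⟨n, hN.1.1 hnN, n', hN'.1.1 hn'N, hpr, hpr', fun h => hne h.symm, hN.1, hN'.1⟩
  rw [← heq]
  exact Subgroup.orderOf_dvd_natCard M (hle (Subgroup.mem_zpowers n'))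

/-- `A = O_a(H) = F(H)` with `C_H(A) ≤ A`. -/
theorem exists_A [Finite G] [Group.IsSolvable G] {H : Subgroup G} {a : ℕ} (ha : a.Prime)
    (hdiv : ∀ M : Subgroup G, NormIn M H → M ≠ ⊥ → a ∣ Nat.card M) :
    ∃ A : Subgroup G, NormIn A H ∧ IsPGroup a A ∧
      (∀ N : Subgroup G, NormIn N H → IsPGroup a N → N ≤ A) ∧
      ∀ h ∈ H, (∀ x ∈ A, h * x = x * h) → h ∈ A := by
  have : Fact a.Prime := ⟨ha⟩
  have key : ∀ K : Subgroup ↥H, K.Normal → NormIn (K.map H.subtype) H := by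
    intro K hK
    refine ⟨Subgroup.map_subtype_le K, ?_⟩
    rintro h hh _ ⟨k, hk, rfl⟩
    exact ⟨⟨h, hh⟩ * k * ⟨h, hh⟩⁻¹, hK.conj_mem k hk ⟨h, hh⟩, rfl⟩
  have hO : Cfsg.pPrimeCore a ↥H = ⊥ := by
    by_contra hne
    have h1 := hdiv _ (key _ (Cfsg.Agent.Lib.Helper22.pPrimeCore_normal' a ↥H)) (by
      rw [Ne, Subgroup.map_eq_bot_iff_of_injective _ H.subtype_injective]; exact hne)
    rw [Subgroup.card_map_of_injective H.subtype_injective] at h1
    have h2 := Cfsg.Agent.Lib.Helper22.card_pPrimeCore_coprime a ↥H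
    have h3 : a ∣ 1 := by
      have := Nat.dvd_gcd h1 (dvd_refl a)
      rwa [h2] at this
    exact ha.one_lt.ne' (Nat.dvd_one.1 h3)
  have hF := Cfsg.Agent.Lib.Helper22.fittingSubgroup_eq_pCore_of_pPrimeCore_eq_bot hO
  have hC := Cfsg.Agent.S0044.result (G := ↥H)
  rw [hF] at hC
  refine ⟨(Cfsg.pCore a ↥H).map H.subtype, key _ (Cfsg.Agent.Lib.Helper22.pCore_normal' a ↥H),
    (Cfsg.Agent.Lib.Helper22.pCore_isPGroup' a ↥H).map _, ?_, ?_⟩
  · intro N hN hNa
    have h1 : (N.subgroupOf H).Normal := by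
      constructor
      intro x hx g
      rw [Subgroup.mem_subgroupOf] at hx ⊢
      exact hN.2 g g.2 x hx
    have h2 : IsPGroup a (N.subgroupOf H) := hNa.comap_subtype
    have h3 := Cfsg.Agent.Lib.Helper55.le_pCore h1 h2
    intro x hx
    exact ⟨⟨x, hN.1 hx⟩, h3 (Subgroup.mem_subgroupOf.2 hx), rfl⟩
  · intro h hh hcomm
    have h4 : (⟨h, hh⟩ : ↥H) ∈ Subgroup.centralizer (Cfsg.pCore a ↥H : Set ↥H) := by
      rw [Subgroup.mem_centralizer_iff]
      intro k hk
      apply Subtype.ext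
      exact (hcomm k ⟨k, hk, rfl⟩).symm
    exact ⟨⟨h, hh⟩, hC h4, rfl⟩

/-- A Hall `a'`-subgroup of `H` and conjugation of `a'`-subgroups into it. -/
theorem exists_hall_compl [Finite G] [Group.IsSolvable G] (H : Subgroup G) {a : ℕ}
    (ha : a.Prime) :
    ∃ D : Subgroup G, D ≤ H ∧ ¬ a ∣ Nat.card D ∧
      ∀ U : Subgroup G, U ≤ H → ¬ a ∣ Nat.card U → ∃ h ∈ H, ∀ u ∈ U, h * u * h⁻¹ ∈ D := by
  have hpos : Nat.card H ≠ 0 := Nat.card_pos.ne'
  obtain ⟨k, hk⟩ : ∃ k, k = (Nat.card H).factorization a := ⟨_, rfl⟩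
  obtain ⟨m, hm⟩ : ∃ m, m = Nat.card H / a ^ k := ⟨_, rfl⟩
  have hG : Nat.card H = m * a ^ k := by
    rw [hm, hk, mul_comm]; exact (Nat.ordProj_mul_ordCompl_eq_self _ _).symm
  have hmn : m.Coprime (a ^ k) := by
    rw [hm, hk]
    exact (Nat.Coprime.pow_left _ (Nat.coprime_ordCompl ha hpos)).symm
  obtain ⟨D, hDH, hDc⟩ := Cfsg.Agent.S3745.hall_ex_in (G := H) hG hmn
  refine ⟨D, hDH, ?_, ?_⟩
  · rw [hDc, hm, hk]; exact Nat.not_dvd_ordCompl ha hpos
  · intro U hU hUa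
    have hUc : (Nat.card U).Coprime (a ^ k) :=
      Nat.Coprime.pow_right k ((Nat.Prime.coprime_iff_not_dvd ha).2 hUa).symm
    obtain ⟨D', hD'H, hD'c, hUD'⟩ := Cfsg.Agent.S3745.hall_le_in (G := H) hG hmn hU hUc
    obtain ⟨g, hg, hgD⟩ := Cfsg.Agent.S3745.hall_conj_in (G := H) hG hmn hD'H hDH hD'c hDc
    refine ⟨g, hg, fun u hu => ?_⟩
    rw [← hgD]
    have h1 := Subgroup.smul_mem_pointwise_smul u (MulAut.conj g) D' (hUD' hu)
    simpa [MulAut.smul_def] using h1

/-- An element of prime order `c` acting nontrivially on a group of prime order `a`. -/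
theorem dvd_sub_one_of_conj {z n : G} {a c : ℕ} (ha : a.Prime) (hc : c.Prime)
    (hn : orderOf n = a) (hz : orderOf z = c) (hnorm : z * n * z⁻¹ ∈ Subgroup.zpowers n)
    (hne : z * n ≠ n * z) : c ∣ a - 1 := by
  have : Fact a.Prime := ⟨ha⟩
  obtain ⟨i, hi⟩ := Subgroup.mem_zpowers_iff.1 hnorm
  have hpow : ∀ k : ℕ, z ^ k * n * (z ^ k)⁻¹ = n ^ (i ^ k) := by
    intro k
    induction k with
    | zero => simp
    | succ k ih =>
      have h1 : z ^ (k + 1) * n * (z ^ (k + 1))⁻¹ = z * (z ^ k * n * (z ^ k)⁻¹) * z⁻¹ := by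
        rw [pow_succ']; simp [mul_assoc]
      rw [h1, ih, ← conj_zpow, ← hi, ← zpow_mul, pow_succ']
  have h2 := hpow c
  rw [← hz, pow_orderOf_eq_one] at h2
  simp only [one_mul, inv_one, mul_one] at h2
  have h3 : (n : G) ^ (1 : ℤ) = n ^ (i ^ orderOf z) := by rw [zpow_one]; exact h2
  rw [zpow_eq_zpow_iff_modEq, hn, hz] at h3
  have h4 : ¬ (i ≡ 1 [ZMOD (a : ℤ)]) := by
    intro h
    have h5 : n ^ i = n ^ (1 : ℤ) := by rw [zpow_eq_zpow_iff_modEq, hn]; exact h
    rw [zpow_one, hi] at h5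
    apply hne
    calc z * n = z * n * z⁻¹ * z := by group
      _ = n * z := by rw [h5]
  have h6 : ((i : ZMod a)) ^ c = 1 := by
    have := (ZMod.intCast_eq_intCast_iff _ _ a).2 h3.symm
    simpa using this
  have h7 : (i : ZMod a) ≠ 1 := by
    intro h
    apply h4
    have h8 : ((i : ℤ) : ZMod a) = ((1 : ℤ) : ZMod a) := by simpa using h
    exact (ZMod.intCast_eq_intCast_iff _ _ a).1 h8
  have hu : orderOf (Units.ofPowEqOne (i : ZMod a) c h6 hc.ne_zero) = c := by
    apply orderOf_eq_of_pow_prime hc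
    · exact Units.pow_ofPowEqOne h6 hc.ne_zero
    · intro h
      apply h7
      have := congrArg Units.val h
      simpa using this
  rw [← hu]
  exact ZMod.orderOf_units_dvd_card_sub_one _

/-- Order of a conjugate. -/
theorem orderOf_conj' (h x : G) : orderOf (h * x * h⁻¹) = orderOf x := by
  have h1 : SemiconjBy h x (h * x * h⁻¹) := by
    unfold SemiconjBy; group
  exact (SemiconjBy.orderOf_eq h h1).symm

end general

/-- Package P8 of S3814. -/
theorem pkgC : PkgC.{u} := by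
  intro hF hT1 hC1a hC1b hT3 hM hNF hY G _ V H t π hc hfa hmin h2p
  have hfin := hc.fin
  have hsolv := hc.solv
  -- Step 1: the prime `a` and the normal subgroup `⟨n⟩`
  obtain ⟨a, n, ha, hnH, hna, hnN, hdiv⟩ := struct_of_cfg hc hmin h2p
  have hn1 : n ≠ 1 := by
    rintro rfl; rw [orderOf_one] at hna; exact ha.one_lt.ne hna
  have haπ : a ∈ π := hc.Hpi a ha (hna ▸ Subgroup.orderOf_dvd_natCard H hnH)
  have hat : a ≠ t := fun h => hc.tnot (h ▸ haπ)
  have hnp : IsPGroup a (Subgroup.zpowers n) :=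
    IsPGroup.of_card (n := 1) (by rw [Nat.card_zpowers, hna, pow_one])
  have hnne : Subgroup.zpowers n ≠ ⊥ := fun h => hn1 (Subgroup.zpowers_eq_bot.1 h)
  -- Step 2: `A = O_a(H)`
  obtain ⟨A, hAN, hAa, hAmax, hCA⟩ := exists_A ha hdiv
  have hnA : n ∈ A := hAmax _ hnN hnp (Subgroup.mem_zpowers n)
  have hAne : A ≠ ⊥ := fun h => hn1 (by rw [h] at hnA; exact Subgroup.mem_bot.1 hnA)
  have hAH := hAN.1
  have hAnorm := hAN.2
  -- Step 3: the Hall subgroup `D`
  obtain ⟨D, hDH, hDa, hconj⟩ := exists_hall_compl H ha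
  -- facts on `V`
  have hVt : IsPGroup t V := by
    intro v; exact ⟨1, by apply Subtype.ext; simpa using hc.Vexp v v.2⟩
  have hcopV : ∀ (q : ℕ) (K : Subgroup G), q.Prime → q ≠ t → IsPGroup q K →
      (Nat.card K).Coprime (Nat.card V) := by
    intro q K hq hqt hK
    have : Fact q.Prime := ⟨hq⟩
    have : Fact t.Prime := ⟨hc.tprime⟩
    obtain ⟨i, hi⟩ := IsPGroup.iff_card.1 hK
    obtain ⟨j, hj⟩ := IsPGroup.iff_card.1 hVt
    rw [hi, hj]
    exact Nat.Coprime.pow _ _ ((Nat.coprime_primes hq hc.tprime).2 hqt)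
  have hVnorm : ∀ g : G, ∀ w ∈ V, g * w * g⁻¹ ∈ V := fun g w hw => hc.Vnormal.conj_mem w hw g
  -- fixed points on `V` from fixed-point-free action on a subgroup
  have hFT : ∀ (q : ℕ) (K : Subgroup G) (g : G), q.Prime → q ≠ t → IsPGroup q K → K ≤ H →
      K ≠ ⊥ → (∀ k ∈ K, g * k * g⁻¹ ∈ K) →
      (∀ i : ℕ, g ^ i ≠ 1 → ∀ k ∈ K, g ^ i * k = k * g ^ i → k = 1) → Fx V g := by
    intro q K g hq hqt hK hKH hKne hgK hfpf
    by_contra hfx
    have h1 := Cfsg.Agent.Lib.Helper29.FP.t2' K V g hgK (hVnorm g)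
      (fun k _ w hw => hVnorm k w hw) hc.Vcomm (hcopV q K hq hqt hK) hfpf
      (fun w hw hgw => by
        by_contra hw1
        exact hfx ⟨w, hw, hw1, hgw.symm⟩)
    apply hKne
    rw [Subgroup.eq_bot_iff_forall]
    intro k hk
    exact hfa k (hKH hk) (fun v hv => (h1 k hk v hv).symm)
  -- a `C_r × C_r` inside `D`
  have hEE : ∀ r ∈ π, r ≠ a → ∃ x ∈ D, ∃ x' ∈ D, orderOf x = r ∧ orderOf x' = r ∧
      x * x' = x' * x ∧ x' ∉ Subgroup.zpowers x := by
    intro r hr hra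
    have hrp := hc.piprime r hr
    obtain ⟨g, hg, hog⟩ := hc.pair r hr a haπ hra
    have hz : orderOf (g ^ a) = r := by
      rw [orderOf_pow_of_dvd ha.ne_zero (hog ▸ dvd_mul_left a r), hog,
        Nat.mul_div_cancel _ ha.pos]
    obtain ⟨z', hz'H, hoz', hcomm, hnot⟩ := hc.rank r hr (g ^ a) (H.pow_mem hg a) hz
    have : Fact r.Prime := ⟨hrp⟩
    have hU : IsPGroup r (Subgroup.closure ({g ^ a, z'} : Set G)) :=
      Cfsg.Agent.Lib.Helper90.isPGroup_closure_pair (g ^ a) z' hcomm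
        (by rw [← hz]; exact pow_orderOf_eq_one _) (by rw [← hoz']; exact pow_orderOf_eq_one _)
    have hUH : Subgroup.closure ({g ^ a, z'} : Set G) ≤ H := by
      rw [Subgroup.closure_le]
      intro w hw
      rcases hw with h | h
      · rw [h]; exact H.pow_mem hg a
      · rw [Set.mem_singleton_iff] at h
        rw [h]; exact hz'H
    have hUa : ¬ a ∣ Nat.card (Subgroup.closure ({g ^ a, z'} : Set G)) := by
      obtain ⟨i, hi⟩ := IsPGroup.iff_card.1 hU
      rw [hi]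
      intro h
      exact hra ((Nat.prime_dvd_prime_iff_eq ha hrp).1 (ha.dvd_of_dvd_pow h)).symm
    obtain ⟨h, hh, hconjU⟩ := hconj _ hUH hUa
    refine ⟨h * g ^ a * h⁻¹, hconjU _ (Subgroup.subset_closure (by simp)), h * z' * h⁻¹,
      hconjU _ (Subgroup.subset_closure (by simp)), ?_, ?_, ?_, ?_⟩
    · rw [orderOf_conj', hz]
    · rw [orderOf_conj', hoz']
    · calc h * g ^ a * h⁻¹ * (h * z' * h⁻¹) = h * (g ^ a * z') * h⁻¹ := by group
        _ = h * (z' * g ^ a) * h⁻¹ := by rw [hcomm]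
        _ = h * z' * h⁻¹ * (h * g ^ a * h⁻¹) := by group
    · intro hmem
      apply hnot
      obtain ⟨k, hk⟩ := Subgroup.mem_zpowers_iff.1 hmem
      rw [conj_zpow] at hk
      have h2 : (g ^ a) ^ k = z' := by
        have := congrArg (fun u => h⁻¹ * u * h) hk
        simpa [mul_assoc] using this
      exact Subgroup.mem_zpowers_iff.2 ⟨k, h2⟩
  -- an element of a `C_r × C_r ≤ D` centralizing `n`
  have hcent : ∀ r ∈ π, r ≠ a → ∀ x ∈ D, ∀ x' ∈ D, orderOf x = r → orderOf x' = r →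
      x * x' = x' * x → x' ∉ Subgroup.zpowers x →
      ∃ e ∈ Subgroup.closure ({x, x'} : Set G), e ≠ 1 ∧ e * n = n * e := by
    intro r hr hra x hx x' hx' hox hox' hxx hnot
    have hrp := hc.piprime r hr
    obtain ⟨e, he, he1, w, hw, hw1, hew⟩ := Cfsg.Agent.Lib.Helper97.FP.tool_T1 r hrp x x' hox
      hox' hxx hnot (Subgroup.zpowers n) hnne
      (by rw [Nat.card_zpowers, hna]; intro h; exact hra ((Nat.prime_dvd_prime_iff_eq hrp ha).1 h))
      (fun w hw => hnN.2 x (hDH hx) w hw) (fun w hw => hnN.2 x' (hDH hx') w hw)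
    exact ⟨e, he, he1, comm_of_mem_zpowers hew (mem_zpowers_of_prime ha hna hw hw1)⟩
  -- Step 4: `D_n = C_D(n)`
  obtain ⟨Dn, hDn⟩ : ∃ Dn : Subgroup G, Dn = D ⊓ Subgroup.centralizer ({n} : Set G) := ⟨_, rfl⟩
  have hmemDn : ∀ x, x ∈ Dn ↔ x ∈ D ∧ x * n = n * x := by
    intro x; rw [hDn, Subgroup.mem_inf, Subgroup.mem_centralizer_singleton_iff]
  have hDnN : NormIn Dn D := by
    refine ⟨fun x hx => ((hmemDn x).1 hx).1, ?_⟩
    intro d hd x hx
    obtain ⟨hxD, hxn⟩ := (hmemDn x).1 hx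
    refine (hmemDn _).2 ⟨D.mul_mem (D.mul_mem hd hxD) (D.inv_mem hd), ?_⟩
    have h1 : d⁻¹ * n * d ∈ Subgroup.zpowers n := by
      have := hnN.2 d⁻¹ (H.inv_mem (hDH hd)) n (Subgroup.mem_zpowers n)
      simpa using this
    have h2 : x * (d⁻¹ * n * d) = (d⁻¹ * n * d) * x := comm_of_mem_zpowers hxn h1
    calc d * x * d⁻¹ * n = d * (x * (d⁻¹ * n * d)) * d⁻¹ := by group
      _ = d * ((d⁻¹ * n * d) * x) * d⁻¹ := by rw [h2]
      _ = n * (d * x * d⁻¹) := by group
  have hDnne : Dn ≠ ⊥ := by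
    obtain ⟨q', hq'π, hq'a⟩ : ∃ q ∈ π, q ≠ a := by
      have h0 : 0 < (π.erase a).card := by
        rw [Finset.card_erase_of_mem haπ, hc.card3]; norm_num
      obtain ⟨q, hq⟩ := Finset.card_pos.1 h0
      exact ⟨q, Finset.mem_of_mem_erase hq, Finset.ne_of_mem_erase hq⟩
    obtain ⟨x, hxD, x', hx'D, hox, hox', hxx, hnot⟩ := hEE q' hq'π hq'a
    obtain ⟨e, he, he1, hen⟩ := hcent q' hq'π hq'a x hxD x' hx'D hox hox' hxx hnot
    have heD : e ∈ D := by
      refine (Subgroup.closure_le D).2 ?_ he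
      intro w hw
      rcases hw with h | h
      · rw [h]; exact hxD
      · rw [Set.mem_singleton_iff] at h
        rw [h]; exact hx'D
    intro hbot
    have : e ∈ Dn := (hmemDn e).2 ⟨heD, hen⟩
    rw [hbot] at this
    exact he1 (Subgroup.mem_bot.1 this)
  -- Step 5: a minimal normal subgroup `R` of `D` inside `D_n`
  obtain ⟨R, hRmin, hRDn⟩ := exists_minNormIn_le hDnN hDnne
  have hRD : R ≤ D := hRmin.1.1
  have hRH : R ≤ H := hRD.trans hDH
  have hRne : R ≠ ⊥ := hRmin.2.1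
  have hRnorm : ∀ d ∈ D, ∀ x ∈ R, d * x * d⁻¹ ∈ R := hRmin.1.2
  have hRn : ∀ x ∈ R, x * n = n * x := fun x hx => ((hmemDn x).1 (hRDn hx)).2
  obtain ⟨b, hb, hRab, hRb⟩ : ∃ b : ℕ, b.Prime ∧ (∀ x ∈ R, ∀ y ∈ R, x * y = y * x) ∧
      ∀ x ∈ R, x ^ b = 1 := by
    have hnor : (R.subgroupOf D).Normal :=
      ⟨fun x hx g => by rw [Subgroup.mem_subgroupOf] at hx ⊢; exact hRnorm g g.2 x hx⟩
    have hne : R.subgroupOf D ≠ ⊥ := by
      intro h
      apply hRne
      rw [Subgroup.subgroupOf_eq_bot] at h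
      exact (h.eq_bot_of_le hRD : R = ⊥)
    have hmin' : ∀ M : Subgroup ↥D, M.Normal → M ≤ R.subgroupOf D →
        M = ⊥ ∨ M = R.subgroupOf D := by
      intro M hM hMle
      by_cases hM0 : M = ⊥
      · exact Or.inl hM0
      · right
        have h1 : NormIn (M.map D.subtype) D := by
          refine ⟨Subgroup.map_subtype_le M, ?_⟩
          rintro d hd _ ⟨k, hk, rfl⟩
          exact ⟨⟨d, hd⟩ * k * ⟨d, hd⟩⁻¹, hM.conj_mem k hk ⟨d, hd⟩, rfl⟩
        have h2 : M.map D.subtype ≤ R := by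
          rintro _ ⟨k, hk, rfl⟩
          exact Subgroup.mem_subgroupOf.1 (hMle hk)
        have h3 : M.map D.subtype ≠ ⊥ := by
          rw [Ne, Subgroup.map_eq_bot_iff_of_injective _ D.subtype_injective]; exact hM0
        have h4 := hRmin.2.2 _ h1 h2 h3
        apply le_antisymm hMle
        intro x hx
        rw [Subgroup.mem_subgroupOf, ← h4] at hx
        obtain ⟨k, hk, hkx⟩ := hx
        have h5 : k = x := Subtype.ext hkx
        rwa [← h5]
    obtain ⟨hcomm, p, hp, hpow⟩ :=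
      Cfsg.Agent.Lib.Helper1.minNormal_elementary (R.subgroupOf D) inferInstance hne hmin'
    refine ⟨p, hp, ?_, ?_⟩
    · intro x hx y hy
      have h6 := mul_comm' (⟨⟨x, hRD hx⟩, Subgroup.mem_subgroupOf.2 hx⟩ : R.subgroupOf D)
        ⟨⟨y, hRD hy⟩, Subgroup.mem_subgroupOf.2 hy⟩
      exact congrArg (fun z : R.subgroupOf D => ((z : ↥D) : G)) h6
    · intro x hx
      have h7 := hpow ⟨x, hRD hx⟩ (Subgroup.mem_subgroupOf.2 hx)
      simpa using congrArg Subtype.val h7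
  have hRp : IsPGroup b R := by
    intro x; exact ⟨1, by apply Subtype.ext; simpa using hRb x x.2⟩
  obtain ⟨r0, hr0, hr01⟩ : ∃ x ∈ R, x ≠ 1 := by
    by_contra h
    push Not at h
    exact hRne ((Subgroup.eq_bot_iff_forall _).2 h)
  have hor0 : orderOf r0 = b := orderOf_eq_of_pow_prime hb (hRb r0 hr0) hr01
  have hbπ : b ∈ π := hc.Hpi b hb (hor0 ▸ Subgroup.orderOf_dvd_natCard H (hRH hr0))
  have hba : b ≠ a := by
    intro h
    apply hDa
    rw [← h, ← hor0]
    exact Subgroup.orderOf_dvd_natCard D (hRD hr0)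
  have hbt : b ≠ t := fun h => hc.tnot (h ▸ hbπ)
  -- the third prime `c`
  obtain ⟨c, hcπ, hca, hcb⟩ : ∃ c ∈ π, c ≠ a ∧ c ≠ b := by
    have h0 : 0 < ((π.erase a).erase b).card := by
      rw [Finset.card_erase_of_mem (Finset.mem_erase.2 ⟨hba, hbπ⟩),
        Finset.card_erase_of_mem haπ, hc.card3]
      norm_num
    obtain ⟨c, hc'⟩ := Finset.card_pos.1 h0
    have h1 := Finset.mem_of_mem_erase hc'
    exact ⟨c, Finset.mem_of_mem_erase h1, Finset.ne_of_mem_erase h1, Finset.ne_of_mem_erase hc'⟩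
  have hcp := hc.piprime c hcπ
  -- Step 6: `E = C_c × C_c ≤ D`
  obtain ⟨x, hxD, x', hx'D, hox, hox', hxx, hnot⟩ := hEE c hcπ hca
  obtain ⟨hEcomm, hEpow⟩ := closure_pair_facts (c := c) hxx
    (by rw [← hox]; exact pow_orderOf_eq_one x)
    (by rw [← hox']; exact pow_orderOf_eq_one x')
  have hED : ∀ e ∈ Subgroup.closure ({x, x'} : Set G), e ∈ D := by
    intro e he
    refine (Subgroup.closure_le D).2 ?_ he
    intro w hw
    rcases hw with h | h
    · rw [h]; exact hxD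
    · rw [Set.mem_singleton_iff] at h
      rw [h]; exact hx'D
  have hEord : ∀ e ∈ Subgroup.closure ({x, x'} : Set G), e ≠ 1 → orderOf e = c :=
    fun e he he1 => orderOf_eq_of_pow_prime hcp (hEpow e he) he1
  have hnotriple : ∀ g : G, orderOf g ≠ a * b * c :=
    hc.notriple a (Finset.mem_insert_of_mem haπ) b (Finset.mem_insert_of_mem hbπ) c
      (Finset.mem_insert_of_mem hcπ) (Ne.symm hba) (Ne.symm hcb) (Ne.symm hca)
  have hfpfR : ∀ e ∈ Subgroup.closure ({x, x'} : Set G), e ≠ 1 → e * n = n * e →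
      ∀ k ∈ R, e * k = k * e → k = 1 := by
    intro e he he1 hen k hk hek
    by_contra hk1
    have hok : orderOf k = b := orderOf_eq_of_pow_prime hb (hRb k hk) hk1
    exact hnotriple (n * k * e) (orderOf_mul3 ha hb hcp (Ne.symm hba) (Ne.symm hca)
      (Ne.symm hcb) hna hok (hEord e he he1) (hRn k hk).symm hen.symm hek.symm)
  obtain ⟨z0, hz0E, hz01, hz0n⟩ := hcent c hcπ hca x hxD x' hx'D hox hox' hxx hnot
  obtain ⟨z3, hz3E, hz31, w, hwR, hw1, hz3w⟩ := Cfsg.Agent.Lib.Helper97.FP.tool_T1 c hcp x x'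
    hox hox' hxx hnot R hRne
    (by
      have : Fact b.Prime := ⟨hb⟩
      obtain ⟨i, hi⟩ := IsPGroup.iff_card.1 hRp
      rw [hi]; intro h
      exact hcb ((Nat.prime_dvd_prime_iff_eq hcp hb).1 (hcp.dvd_of_dvd_pow h)))
    (fun w hw => hRnorm x hxD w hw) (fun w hw => hRnorm x' hx'D w hw)
  have hz3n : z3 * n ≠ n * z3 := fun h => hw1 (hfpfR z3 hz3E hz31 h w hwR hz3w)
  have hz0H := hDH (hED z0 hz0E)
  have hz3H := hDH (hED z3 hz3E)
  have hoz0 := hEord z0 hz0E hz01
  have hoz3 := hEord z3 hz3E hz31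
  have hdvd : c ∣ a - 1 := dvd_sub_one_of_conj ha hcp hna hoz3
    (hnN.2 z3 hz3H n (Subgroup.mem_zpowers n)) hz3n
  -- every nontrivial element of `E` has a fixed point on `V`
  have hEfx : ∀ e ∈ Subgroup.closure ({x, x'} : Set G), e ≠ 1 → Fx V e := by
    intro e he he1
    have heo := hEord e he he1
    have heH := hDH (hED e he)
    have hpw : ∀ i : ℕ, e ^ i ≠ 1 → e ∈ Subgroup.zpowers (e ^ i) := fun i hi =>
      mem_zpowers_of_prime hcp heo (Subgroup.pow_mem _ (Subgroup.mem_zpowers e) i) hi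
    by_cases hen : e * n = n * e
    · apply hFT b R e hb hbt hRp hRH hRne (fun k hk => hRnorm e (hED e he) k hk)
      intro i hi k hk hik
      exact hfpfR (e ^ i) (Subgroup.pow_mem _ he i) hi
        ((Commute.pow_left (show Commute e n from hen) i).eq) k hk hik
    · apply hFT a (Subgroup.zpowers n) e ha hat hnp hnN.1 hnne (fun k hk => hnN.2 e heH k hk)
      intro i hi k hk hik
      by_contra hk1
      apply hen
      have h1 : e ^ i * n = n * e ^ i :=
        comm_of_mem_zpowers hik (mem_zpowers_of_prime ha hna hk hk1)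
      exact (comm_of_mem_zpowers h1.symm (hpw i hi)).symm
  -- Step 7: `y = w`
  have hyH := hRH hwR
  have hoy : orderOf w = b := orderOf_eq_of_pow_prime hb (hRb w hwR) hw1
  have hz0R : z0 * w * z0⁻¹ ∈ R := hRnorm z0 (hED z0 hz0E) w hwR
  have hz0z3 : z0 * z3 = z3 * z0 := hEcomm z0 hz0E z3 hz3E
  have hyinv : z0 * w * z0⁻¹ ∈ Subgroup.zpowers w := by
    apply hC1b hc c hcπ b hbπ hcb z3 hz3H w hyH (z0 * w * z0⁻¹) (hRH hz0R) hoz3
      (hEfx z3 hz3E hz31) hoy
    · rw [orderOf_conj', hoy]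
    · exact hz3w
    · have c1 : Commute z3 z0 := hz0z3.symm
      have c2 : Commute z3 w := hz3w
      exact ((c1.mul_right c2).mul_right c1.inv_right).eq
    · exact hRab w hwR _ hz0R
  have hz0y : z0 * w ≠ w * z0 := fun h => hw1 (hfpfR z0 hz0E hz01 hz0n w hwR h)
  -- Step 8: `y` is free and `z3` is fixed-point-free on `A`
  have hMres := hM hc hfa b hbπ c hcπ a haπ (Ne.symm hcb) hca hba w hyH z3 hz3H hoy hoz3
    hz3w.symm A hAH hAa hAne (fun k hk => hAnorm w hyH k hk) (fun k hk => hAnorm z3 hz3H k hk)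
  have hyfree : ¬ Fx V w ∧ ∀ k ∈ A, z3 * k = k * z3 → k = 1 := by
    rcases hMres with ⟨-, h2, h3, -⟩ | ⟨-, -, h3, -⟩
    · exact ⟨h3, h2⟩
    · exact absurd (hEfx z3 hz3E hz31) h3
  -- Step 9: Lemma Y
  have hcyc : ∀ e ∈ Subgroup.closure ({z0, z3} : Set G), e ≠ 1 → ∀ u ∈ A, ∀ u' ∈ A,
      e * u = u * e → e * u' = u' * e → u * u' = u' * u → orderOf u = a → orderOf u' = a →
      u' ∈ Subgroup.zpowers u := by
    intro e he he1 u hu u' hu' heu heu' huu' hou hou'
    have heE : e ∈ Subgroup.closure ({x, x'} : Set G) := by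
      refine (Subgroup.closure_le _).2 ?_ he
      intro v hv
      rcases hv with h | h
      · rw [h]; exact hz0E
      · rw [Set.mem_singleton_iff] at h
        rw [h]; exact hz3E
    exact hC1b hc c hcπ a haπ hca e (hDH (hED e heE)) u (hAH hu) u' (hAH hu')
      (hEord e heE he1) (hEfx e heE he1) hou hou' heu heu' huu'
  have hab' : ∀ B : Subgroup G, B ≤ A → (∀ u ∈ B, ∀ u' ∈ B, u * u' = u' * u) →
      (∀ u ∈ B, w * u * w⁻¹ ∈ B) → ∀ u ∈ B, w * u = u * w := by
    intro B hBA hBab hBy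
    exact hT3 hc hfa b hbπ w hyH hoy hyfree.1 B (hBA.trans hAH) hBab (by
      have : Fact a.Prime := ⟨ha⟩
      obtain ⟨i, hi⟩ := IsPGroup.iff_card.1 (hAa.to_le hBA)
      rw [hi]; intro h
      exact hba ((Nat.prime_dvd_prime_iff_eq hb ha).1 (hb.dvd_of_dvd_pow h))) hBy
  have hfinal := hY a b c ha hb hcp (Ne.symm hba) (Ne.symm hca) (Ne.symm hcb) hdvd A hAa w z0 z3
    hoy hoz0 hoz3 (fun k hk => hAnorm w hyH k hk) (fun k hk => hAnorm z0 hz0H k hk)
    (fun k hk => hAnorm z3 hz3H k hk) hz0z3 hz3w hyinv hz0y hyfree.2 hcyc hab'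
  have hyA : w ∈ A := hCA w hyH hfinal
  obtain ⟨i, hi⟩ := hAa ⟨w, hyA⟩
  have h1 : w ^ a ^ i = 1 := by simpa using congrArg Subtype.val hi
  have h2 : b ∣ a ^ i := hoy ▸ orderOf_dvd_of_pow_eq_one h1
  exact hba ((Nat.prime_dvd_prime_iff_eq hb ha).1 (hb.dvd_of_dvd_pow h2))

end Cfsg.Agent.Lib.Helper27.FP
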